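import Cfsg.Agent.H687.Gen
import Cfsg.Agent.H70.SzOut
import Cfsg.Agent.S2127
import Cfsg.Agent.Schreier.ClassBase

/-!
# S4834, cross characteristic: Suzuki and Ree groups (helper415)

* `Cross p r S` : a nontrivial irreducible character of degree prime to `p` and not a power of `r`, invariant under all
  automorphisms of `p`-power order;
* `cross_of` : a criterion when every automorphism is inner times a field automorphism and the field automorphisms fix an
  element of order divisible by `r`;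
* `cross_suz`, `cross_ree`.
-/

set_option autoImplicit false

namespace Cfsg.Agent.H415.Cross

open Cfsg Cfsg.Agent.H687

universe u v

/-- the cross characteristic condition -/
def Cross (p r : ℕ) (S : Type*) [Group S] : Prop :=
  ∃ β : S → ℂ, IsIrrCharacter S β ∧ (∃ b : ℕ, β 1 = b ∧ b ≠ 1 ∧ ¬ p ∣ b ∧ ∀ k : ℕ, b ≠ r ^ k) ∧
    ∀ φ : MulAut S, (∃ k : ℕ, orderOf φ = p ^ k) → ∀ s, β (φ s) = β s

theorem Cross.of_equiv {p r : ℕ} {S T : Type*} [Group S] [Group T] (e : S ≃* T) (h : Cross p r T) : Cross p r S := by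
  obtain ⟨β, hβ, ⟨b, hb, hb1, hpb, hbr⟩, hinv⟩ := h
  refine ⟨β ∘ e, Characters.Core.isIrr_comp e.toMonoidHom e.surjective hβ, ⟨b, ?_, hb1, hpb, hbr⟩, ?_⟩
  · rw [Function.comp_apply, map_one, hb]
  · rintro φ ⟨k, hk⟩ s
    have h1 := hinv (MulAut.congr e φ) ⟨k, by
      rw [← hk]
      exact orderOf_injective (MulAut.congr e).toMonoidHom (MulAut.congr e).injective φ⟩ (e s)
    have h2 : (MulAut.congr e φ) (e s) = e (φ s) := by simp [MulAut.congr]
    rw [h2] at h1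
    exact h1

/-- powers of an automorphism in the form inner times `Ψ a` -/
theorem pow_eq {S : Type u} [Group S] {A : Type v} [Group A] (Ψ : A →* MulAut S) (g : S) (a : A) (n : ℕ) :
    ∃ g' : S, (MulAut.conj g * Ψ a) ^ n = MulAut.conj g' * Ψ (a ^ n) := by
  induction n with
  | zero => exact ⟨1, by simp⟩
  | succ n ih =>
    obtain ⟨g', hg'⟩ := ih
    refine ⟨g' * (Ψ (a ^ n)) g, ?_⟩
    rw [pow_succ, hg', pow_succ, map_mul, map_mul]
    ext s
    simp [MulAut.mul_apply, MulAut.conj_apply, mul_assoc]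

/-- **The criterion.** -/
theorem cross_of {S : Type u} [Group S] [Finite S] [IsSimpleGroup S] (hna : ∃ a b : S, a * b ≠ b * a) {p r : ℕ}
    [hp : Fact p.Prime] [Fact r.Prime] {A : Type v} [Group A] [Finite A] (hA : ∀ a b : A, a * b = b * a)
    (Ψ : A →* MulAut S) (y : S) (hy : r ∣ orderOf y) (hΨy : ∀ a, Ψ a y = y)
    (hall : ∀ φ : MulAut S, ∃ (g : S) (a : A), φ = MulAut.conj g * Ψ a) : Cross p r S := by
  obtain ⟨P0⟩ : Nonempty (Sylow p A) := inferInstance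
  obtain ⟨β, h1, h2, h3, h4⟩ := exists_block_char hna (p := p) (r := r) ((P0 : Subgroup A).map Ψ) (P0.2.map Ψ) y hy (by
    rintro _ ⟨a, -, rfl⟩
    rw [hΨy])
  have hcl : ∀ g s : S, (β : S → ℂ) (MulAut.conj g s) = (β : S → ℂ) s := fun g s =>
    apply_eq_of_isConj β (isConj_iff.2 ⟨g⁻¹, by simp [MulAut.conj_apply, mul_assoc]⟩)
  let H : Subgroup A :=
    { carrier := {a | ∀ s, (β : S → ℂ) (Ψ a s) = (β : S → ℂ) s}
      one_mem' := fun s => by rw [map_one]; rfl
      mul_mem' := fun {a b} ha hb s => by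
        rw [map_mul, MulAut.mul_apply, ha, hb]
      inv_mem' := fun {a} ha s => by
        have h5 := ha (Ψ a⁻¹ s)
        rw [← MulAut.mul_apply, ← map_mul, mul_inv_cancel, map_one] at h5
        exact h5.symm }
  have hPH : (P0 : Subgroup A) ≤ H := fun a ha s => h4 (Ψ a) ⟨a, ha, rfl⟩ s
  refine ⟨β, β.2, ⟨_, Irr.one_eq β, h1, h2, h3⟩, ?_⟩
  rintro φ ⟨k, hk⟩ s
  obtain ⟨g, a, rfl⟩ := hall φ
  suffices ha : a ∈ H by
    rw [MulAut.mul_apply, hcl]
    exact ha s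
  -- `a ^ p ^ k ∈ H`
  have e1 : a ^ p ^ k ∈ H := by
    obtain ⟨g', hg'⟩ := pow_eq Ψ g a (p ^ k)
    rw [← hk, pow_orderOf_eq_one] at hg'
    rw [← hk]
    intro s
    have h5 : Ψ (a ^ orderOf (MulAut.conj g * Ψ a)) = MulAut.conj g'⁻¹ := by
      rw [map_inv]
      exact (eq_inv_of_mul_eq_one_right hg'.symm)
    rw [h5, hcl]
  -- `a ^ index ∈ H`
  have hn : (P0 : Subgroup A).Normal := ⟨fun x hx b => by
    rw [hA b x, mul_inv_cancel_right]
    exact hx⟩
  have e2 : a ^ (P0 : Subgroup A).index ∈ H := hPH (Subgroup.pow_index_mem _ a)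
  have hcop : Nat.Coprime (p ^ k) (P0 : Subgroup A).index :=
    Nat.Coprime.pow_left k ((Nat.Prime.coprime_iff_not_dvd hp.out).mpr P0.not_dvd_index)
  have h5 := Nat.gcd_eq_gcd_ab (p ^ k) (P0 : Subgroup A).index
  rw [Nat.Coprime.gcd_eq_one hcop] at h5
  have h6 : a = (a ^ p ^ k) ^ Nat.gcdA (p ^ k) (P0 : Subgroup A).index *
      (a ^ (P0 : Subgroup A).index) ^ Nat.gcdB (p ^ k) (P0 : Subgroup A).index := by
    rw [← zpow_natCast a (p ^ k), ← zpow_natCast a, ← zpow_mul, ← zpow_mul, ← zpow_add, ← h5]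
    simp
  rw [h6]
  exact mul_mem (Subgroup.zpow_mem _ e1 _) (Subgroup.zpow_mem _ e2 _)

/-! ### Suzuki groups -/

section suz

open Cfsg.Agent.ThreePrime Cfsg.Agent.ThreePrime.SzRel Cfsg.Agent.LieRecognition.SzMatrix Cfsg.Agent.H70.SzOut

theorem cross_sz {F : Type u} [Field F] [Fintype F] {m : ℕ} (hm : 1 ≤ m) (hF : Fintype.card F = 2 ^ (2 * m + 1))
    [IsSimpleGroup ↥(Cfsg.Lie.Sz F (2 ^ (m + 1)))] (hna : ∃ a b : ↥(Cfsg.Lie.Sz F (2 ^ (m + 1))), a * b ≠ b * a)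
    {p : ℕ} [Fact p.Prime] : Cross p 2 ↥(Cfsg.Lie.Sz F (2 ^ (m + 1))) := by
  have h8 : 8 ≤ Nat.card F := by
    rw [Nat.card_eq_fintype_card, hF]
    exact SzRel.Rel.eight_le hm
  obtain ⟨S, hS⟩ := exists_sylow hm hF
  have hfin : Finite (F ≃+* F) := Finite.of_injective (fun σ : F ≃+* F => (σ : F → F)) DFunLike.coe_injective
  refine cross_of hna (A := F ≃+* F) Schreier.ClassBase.ringAut_comm (fieldAut (good hF)) ((good hF).u 0 1) ?_ ?_ ?_
  · have h1 : (ofGood (good hF)).u 0 1 * (ofGood (good hF)).u 0 1 = 1 := ((ofGood (good hF)).u_sq_iff 0 1).2 rfl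
    have h2 : (ofGood (good hF)).u 0 1 ≠ 1 := (ofGood (good hF)).u_ne_one one_ne_zero
    have h3 : orderOf ((good hF).u 0 1) = 2 := orderOf_eq_prime (by rw [pow_two]; exact h1) h2
    rw [h3]
  · intro σ
    rw [fieldAut_u, map_zero, map_one]
  · intro ψ
    obtain ⟨g, hg⟩ := exists_fix (ofGood (good hF)) S hS ψ
    obtain ⟨σ, k, hσ⟩ := eq_of_fix h8 (good hF) hg
    refine ⟨g⁻¹ * (good hF).d k, σ, ?_⟩
    rw [map_mul, mul_assoc, ← hσ, ← mul_assoc, ← map_mul, inv_mul_cancel, map_one, one_mul]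

/-- **Suzuki groups.** -/
theorem cross_suz {S : Type*} [Group S] [IsSimpleGroup S] (h : Lie.IsoSuzuki S) (hna : ∃ a b : S, a * b ≠ b * a) {p : ℕ}
    [Fact p.Prime] : Cross p 2 S := by
  obtain ⟨F, iF, iF', m, hm, hF, ⟨e⟩⟩ := h
  have hs : IsSimpleGroup ↥(Cfsg.Lie.Sz F (2 ^ (m + 1))) := e.isSimpleGroup_congr.1 inferInstance
  refine Cross.of_equiv e (cross_sz hm hF ?_)
  obtain ⟨a, b, hab⟩ := hna
  exact ⟨e a, e b, fun h => hab (e.injective (by rw [map_mul, map_mul, h]))⟩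

end suz

/-! ### Ree groups -/

section ree

open Cfsg.Lie Cfsg.Agent.ChevStructure.FieldMap Cfsg.Agent.ChevalleyStructure.Ree.Gens
  Cfsg.Agent.ChevalleyStructure.Ree.Checks Cfsg.Agent.ChevalleyStructure.Ree.Normal
  Cfsg.Agent.ChevalleyStructure.Ree Cfsg.Agent.H71 Cfsg.Agent.LieRecognition Cfsg.Agent.S2127

/-- the field automorphisms as a homomorphism -/
noncomputable def fldHom (K : Type u) [Field K] (e : ℕ) : (K ≃+* K) →* MulAut ↥(twistedG2 K e) where
  toFun τ := fld τ e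
  map_one' := by
    ext1 g
    apply Subtype.ext
    rw [coe_fld]
    apply Units.ext
    rw [glEquiv_coe]
    ext i j
    simp
  map_mul' σ τ := by
    ext1 g
    apply Subtype.ext
    rw [MulAut.mul_apply, coe_fld, coe_fld, coe_fld]
    apply Units.ext
    rw [glEquiv_coe, glEquiv_coe, glEquiv_coe]
    ext i j
    simp

theorem cross_twistedG2 {K : Type u} [Field K] [Fintype K] {m : ℕ} (hm : 1 ≤ m) (hK : Fintype.card K = 3 ^ (2 * m + 1))
    [IsSimpleGroup ↥(twistedG2 K (3 ^ m))] (hna : ∃ a b : ↥(twistedG2 K (3 ^ m)), a * b ≠ b * a) {p : ℕ} [Fact p.Prime] :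
    Cross p 3 ↥(twistedG2 K (3 ^ m)) := by
  have : Fact (Nat.Prime 3) := ⟨by norm_num⟩
  obtain ⟨θ, c⟩ := exists_ctx hK
  have F : ReeOut.Fld (Data.data c) (fun τ => fld τ (3 ^ m)) := by
    refine ⟨?_, ?_, ?_⟩
    · intro τ t u v
      apply Subtype.ext
      rw [coe_fld]
      exact glE_wU τ _ _ _ _
    · intro τ a
      apply Subtype.ext
      rw [coe_fld]
      exact glE_tU τ _ _
    · intro τ
      apply Subtype.ext
      rw [coe_fld]
      exact glE_nU τ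
  have hfin : Finite (K ≃+* K) := Finite.of_injective (fun σ : K ≃+* K => (σ : K → K)) DFunLike.coe_injective
  have hN : ∀ τ : K ≃+* K, fldHom K (3 ^ m) τ = fld τ (3 ^ m) := fun _ => rfl
  refine cross_of hna (A := K ≃+* K) Schreier.ClassBase.ringAut_comm (fldHom K (3 ^ m)) (Data.U K (3 ^ m) 0 0 1) ?_ ?_ ?_
  · have h1 : Data.U K (3 ^ m) 0 0 1 ^ 3 = 1 := ReeOut.cube_U0 hK (Data.data c) 0 1
    have h2 : Data.U K (3 ^ m) 0 0 1 ≠ 1 := by
      intro h
      have h3 : Data.U K (3 ^ m) 0 0 1 = Data.U K (3 ^ m) 0 0 0 := by rw [h, (Data.data c).U_zero]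
      exact one_ne_zero (ReeSylowThree.U_injective (Data.data c) h3).2.2
    rw [orderOf_eq_prime h1 h2]
  · intro τ
    rw [hN, F.onU, map_zero, map_one]
  · intro φ
    obtain ⟨g, hg⟩ := ReeOut.exists_frame hK (Data.data c) φ
    obtain ⟨a, τ, h1⟩ := ReeOut.exists_of_frame hm hK F hg
    refine ⟨g⁻¹ * Data.T c a, τ, ?_⟩
    rw [hN, map_mul, mul_assoc, ← h1, ← mul_assoc, ← map_mul, inv_mul_cancel, map_one, one_mul]

/-- **Ree groups.** -/
theorem cross_ree {S : Type*} [Group S] [IsSimpleGroup S] (h : Lie.IsoRee S) (hna : ∃ a b : S, a * b ≠ b * a) {p : ℕ}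
    [Fact p.Prime] : Cross p 3 S := by
  obtain ⟨K, iK, iK', m, hm, hK, ⟨e⟩⟩ := h
  have hs : IsSimpleGroup ↥(twistedG2 K (3 ^ m)) := e.isSimpleGroup_congr.1 inferInstance
  refine Cross.of_equiv e (cross_twistedG2 hm hK ?_)
  obtain ⟨a, b, hab⟩ := hna
  exact ⟨e a, e b, fun h => hab (e.injective (by rw [map_mul, map_mul, h]))⟩

end ree

end Cfsg.Agent.H415.Cross
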